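import Cfsg.Agent.H558.EPU.Three
import Cfsg.Agent.H588.EPU.Asm

/-!
# S3499, row SU-C3 (helper558)
-/

set_option autoImplicit false

namespace Cfsg.Agent.H588.EPU

open Cfsg Cfsg.Geo Cfsg.Agent.H284 Cfsg.Agent.H419.EP

/-- **extension fields** -/
theorem kills_C3 : Kills C3 := by
  intro Q _ _ _ A Γ he F _ _ n q m hF hn h1 h2 M hM hle
  obtain ⟨r, K, hr, hr2, hK, hadj, rfl⟩ := hM
  have hne : Nonempty (Fin n) := ⟨⟨0, by omega⟩⟩
  by_cases h5 : 5 ≤ n
  · exact Cfsg.Agent.H558.EPU.big_false m he hF h5 hr hr2 hK hadj hle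
  have hdvd := Cfsg.Agent.H912.finrank_dvd_of_fieldSub hK
  rw [Fintype.card_fin] at hdvd
  have hr3 : 3 ≤ r := by
    have := hr.two_le
    obtain ⟨j, hj⟩ := hr2
    omega
  have hrn := Nat.le_of_dvd (by omega) hdvd
  have hn3 : n = 3 := by
    rcases (show n = 3 ∨ n = 4 by omega) with h | h
    · exact h
    · exfalso
      subst h
      have hr4 : r = 3 ∨ r = 4 := by omega
      rcases hr4 with h | h
      · rw [h] at hdvd; norm_num at hdvd
      · rw [h] at hr; norm_num at hr
  subst hn3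
  have hr' : r = 3 := by omega
  subst hr'
  have hq := Cfsg.Agent.LieClassical.HermBasic.two_le hF
  exact Cfsg.Agent.H558.EPU.three_false m he hF (by omega) hK hadj hle

end Cfsg.Agent.H588.EPU
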