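import Cfsg.Agent.H558.EPU.Comm

/-!
# S3499, row SU-C3: `K`-linear isometries of determinant one (helper558)

`exists_elem`: for `n > r` and `w` with `f(k w, w) ≠ 0` for some `k ∈ K`, there is `g ∈ GU` of determinant one commuting
with `K` and `k ∈ K` with `g w = k w` and `k w` not a multiple of `w`.
-/

set_option autoImplicit false
set_option linter.unusedSectionVars false

namespace Cfsg.Agent.H558.EPU

open Cfsg Cfsg.Geo Matrix Module Cfsg.Agent.LieClassical.HermBasic Cfsg.Agent.H907 Cfsg.Agent.H918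
open scoped MatrixGroups

section normone

variable {F L : Type*} [Field F] [Fintype F] [Field L] [Algebra F L] [FiniteDimensional F L] {q r : ℕ}
  (hF : Fintype.card F = q ^ 2) (hfr : 2 ≤ finrank F L)
  (σ : L ≃+* L) (hσ2 : ∀ a, σ (σ a) = a) (hσF : ∀ a : F, σ (algebraMap F L a) = algebraMap F L (a ^ q))

include hF hfr hσ2 hσF in
theorem exists_norm_one : ∃ k : L, σ k * k = 1 ∧ k ∉ Set.range (algebraMap F L) := by
  obtain ⟨s0, hs0⟩ : ∃ s0 : L, s0 ∉ Set.range (algebraMap F L) := by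
    by_contra hcon
    push Not at hcon
    have h1 : finrank F L ≤ 1 := finrank_le_one (1 : L) (by
      intro w
      obtain ⟨c, hc⟩ := hcon w
      exact ⟨c, by rw [← hc, Algebra.smul_def, mul_one]⟩)
    omega
  obtain ⟨ζ, hζ⟩ := exists_not_fixed hF
  have hζ' : ζ - ζ ^ q ≠ 0 := fun e => hζ (sub_eq_zero.1 e).symm
  obtain ⟨a, haσ, haF⟩ : ∃ a : L, σ a = a ∧ a ∉ Set.range (algebraMap F L) := by
    by_contra hcon
    push Not at hcon
    apply hs0
    obtain ⟨b, hb⟩ : ∃ b, b = (ζ - ζ ^ q)⁻¹ • (s0 - σ s0) := ⟨_, rfl⟩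
    have hζζ : (ζ - ζ ^ q) ^ q = -(ζ - ζ ^ q) := by
      rw [sub_pow_q hF, pow_q_pow_q hF]
      ring
    have hσb : σ b = b := by
      rw [hb, Algebra.smul_def, map_mul, hσF, map_sub, hσ2, inv_pow, hζζ, inv_neg, map_neg]
      ring
    have hσa : σ (s0 - ζ • b) = s0 - ζ • b := by
      have e1 : s0 - σ s0 = (ζ - ζ ^ q) • b := by
        rw [hb, smul_smul, mul_inv_cancel₀ hζ', one_smul]
      rw [map_sub, Algebra.smul_def, map_mul, hσF, hσb, ← Algebra.smul_def, ← Algebra.smul_def]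
      rw [sub_smul] at e1
      linear_combination (exp := 1) -e1
    obtain ⟨β, hβ⟩ := hcon b hσb
    obtain ⟨α, hα⟩ := hcon _ hσa
    refine ⟨α + ζ * β, ?_⟩
    rw [map_add, map_mul, hα, hβ, Algebra.smul_def]
    ring
  have hs : a + algebraMap F L ζ ≠ 0 := by
    intro h
    apply haF
    exact ⟨-ζ, by rw [map_neg]; exact (eq_neg_of_add_eq_zero_left h).symm⟩
  have hσs : σ (a + algebraMap F L ζ) = a + algebraMap F L (ζ ^ q) := by
    rw [map_add, haσ, hσF]
  have hσs0 : σ (a + algebraMap F L ζ) ≠ 0 := fun e => hs ((map_eq_zero_iff _ σ.injective).1 e)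
  refine ⟨(a + algebraMap F L ζ) * (σ (a + algebraMap F L ζ))⁻¹, ?_, ?_⟩
  · rw [map_mul, map_inv₀, hσ2]
    field_simp
  · rintro ⟨c, hc⟩
    have h1 : a + algebraMap F L ζ = algebraMap F L c * (a + algebraMap F L (ζ ^ q)) := by
      rw [hc, ← hσs, inv_mul_cancel_right₀ hσs0]
    have h2 : algebraMap F L (1 - c) * a = algebraMap F L (c * ζ ^ q - ζ) := by
      rw [map_sub, map_sub, map_mul, map_one]
      linear_combination h1
    by_cases hc1 : c = 1
    · rw [hc1, sub_self, map_zero, zero_mul, one_mul, eq_comm, map_eq_zero_iff _ (algebraMap F L).injective] at h2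
      exact hζ (sub_eq_zero.1 h2)
    · apply haF
      refine ⟨(c * ζ ^ q - ζ) / (1 - c), ?_⟩
      have h3 : algebraMap F L (1 - c) ≠ 0 := by
        rw [Ne, map_eq_zero_iff _ (algebraMap F L).injective, sub_eq_zero]
        exact fun e => hc1 e.symm
      rw [map_div₀, ← h2, mul_div_cancel_left₀ _ h3]

end normone

section H

variable {F : Type*} [Field F] [Fintype F] {n q r : ℕ} (hF : Fintype.card F = q ^ 2)
  {K : Subalgebra F (Matrix (Fin n) (Fin n) F)} (hK : IsFieldSubalgebra r K)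
  (hadj : IsAdjointClosedFor (hermForm n F q) K)

include hK in
/-- coordinates on `K w` -/
theorem exists_H (hn : 0 < n) {w : Fin n → F} (hw : ∃ k ∈ K, hermForm n F q (k *ᵥ w) w ≠ 0) :
    ∃ H : (Fin n → F) →ₗ[F] K,
      (∀ (v : Fin n → F) (l : K), hermForm n F q ((l : Matrix (Fin n) (Fin n) F) *ᵥ v) w = phiK q K w (l * H v)) ∧
      (∀ (l : K) (v : Fin n → F), H ((l : Matrix (Fin n) (Fin n) F) *ᵥ v) = l * H v) ∧ H w = 1 ∧
      ∀ v, (∀ l : K, hermForm n F q ((l : Matrix (Fin n) (Fin n) F) *ᵥ v) w = 0) → H v = 0 := by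
  have : Nonempty (Fin n) := ⟨⟨0, hn⟩⟩
  let _ : Field K := (isField_of hK).toField
  let B : K →ₗ[F] (K →ₗ[F] F) :=
    { toFun := fun h => (phiK q K w).comp (LinearMap.mulRight F h)
      map_add' := fun a b => by
        ext l
        simp only [LinearMap.comp_apply, LinearMap.mulRight_apply, LinearMap.add_apply, mul_add, map_add]
      map_smul' := fun c a => by
        ext l
        simp only [LinearMap.comp_apply, LinearMap.mulRight_apply, LinearMap.smul_apply, mul_smul_comm, map_smul,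
          RingHom.id_apply] }
  have hB : ∀ h l, B h l = phiK q K w (l * h) := fun _ _ => rfl
  have hinj : Function.Injective B := by
    rw [injective_iff_map_eq_zero]
    intro h hh
    by_contra h0
    obtain ⟨k, hk, hk0⟩ := hw
    apply hk0
    have h1 : B h (⟨k, hk⟩ * h⁻¹) = 0 := by rw [hh]; rfl
    rw [hB, inv_mul_cancel_right₀ h0] at h1
    exact h1
  have hsurj : Function.Surjective B := by
    refine (LinearMap.injective_iff_surjective_of_finrank_eq_finrank ?_).1 hinj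
    exact Subspace.dual_finrank_eq.symm
  let e : K ≃ₗ[F] (K →ₗ[F] F) := LinearEquiv.ofBijective B ⟨hinj, hsurj⟩
  let β : (Fin n → F) →ₗ[F] (K →ₗ[F] F) :=
    { toFun := fun v =>
        { toFun := fun l => hermForm n F q ((l : Matrix (Fin n) (Fin n) F) *ᵥ v) w
          map_add' := fun a b => by rw [Subalgebra.coe_add, Matrix.add_mulVec, herm_add_left]
          map_smul' := fun c a => by
            rw [Subalgebra.coe_smul, Matrix.smul_mulVec, herm_smul_left, RingHom.id_apply, smul_eq_mul] }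
      map_add' := fun a b => by
        ext l
        show hermForm n F q ((l : Matrix (Fin n) (Fin n) F) *ᵥ (a + b)) w = _ + _
        rw [Matrix.mulVec_add, herm_add_left]
        rfl
      map_smul' := fun c a => by
        ext l
        show hermForm n F q ((l : Matrix (Fin n) (Fin n) F) *ᵥ (c • a)) w = c * _
        rw [Matrix.mulVec_smul, herm_smul_left]
        rfl }
  have hβ : ∀ v l, β v l = hermForm n F q ((l : Matrix (Fin n) (Fin n) F) *ᵥ v) w := fun _ _ => rfl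
  let H : (Fin n → F) →ₗ[F] K := e.symm.toLinearMap.comp β
  have h1 : ∀ v, B (H v) = β v := fun v => e.apply_symm_apply (β v)
  have h2 : ∀ (v : Fin n → F) (l : K),
      hermForm n F q ((l : Matrix (Fin n) (Fin n) F) *ᵥ v) w = phiK q K w (l * H v) := by
    intro v l
    rw [← hB, h1, hβ]
  have h3 : ∀ (v : Fin n → F) (h : K), (∀ l : K, hermForm n F q ((l : Matrix (Fin n) (Fin n) F) *ᵥ v) w =
      phiK q K w (l * h)) → H v = h := by
    intro v h hh
    apply hinj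
    rw [h1]
    ext l
    rw [hβ, hh, hB]
  refine ⟨H, h2, ?_, ?_, ?_⟩
  · intro l v
    apply h3
    intro l'
    have e1 := h2 v (l' * l)
    rw [← mul_assoc, ← e1, Matrix.mulVec_mulVec]
    rfl
  · apply h3
    intro l
    rw [mul_one, phiK_apply]
  · intro v hv
    apply h3
    intro l
    rw [hv, mul_zero, map_zero]

include hF hK hadj in
/-- a second vector, perpendicular to `K w` -/
theorem exists_second (hn : r < n) {w : Fin n → F} (hw : ∃ k ∈ K, hermForm n F q (k *ᵥ w) w ≠ 0) :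
    ∃ w2 : Fin n → F, (∃ k ∈ K, hermForm n F q (k *ᵥ w2) w2 ≠ 0) ∧
      ∀ l ∈ K, hermForm n F q (l *ᵥ w2) w = 0 := by
  obtain ⟨H, h1, h2, h3, h4⟩ := exists_H hK (by omega) hw
  by_contra hcon
  push Not at hcon
  -- the kernel of `H` is perpendicular to `K w`
  have hperp : ∀ v, H v = 0 → ∀ l ∈ K, hermForm n F q (l *ᵥ v) w = 0 := by
    intro v hv l hl
    have := h1 v ⟨l, hl⟩
    rw [hv, mul_zero, map_zero] at this
    exact this
  have hself : ∀ v, H v = 0 → hermForm n F q v v = 0 := by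
    intro v hv
    by_contra h5
    obtain ⟨l, hl, hl'⟩ := hcon v ⟨1, K.one_mem, by rwa [Matrix.one_mulVec]⟩
    exact hl' (hperp v hv l hl)
  have hpol : ∀ v v', H v = 0 → H v' = 0 → hermForm n F q v v' = 0 := by
    intro v v' hv hv'
    apply eq_zero_of_forall_trace hF
    intro c
    have h5 := hself (c • v + v') (by rw [map_add, map_smul, hv, hv', smul_zero, add_zero])
    rw [herm_add_left, herm_add_right hF, herm_add_right hF, herm_smul_left, herm_smul_left, herm_smul_right,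
      herm_smul_right, hself v hv, hself v' hv', herm_swap hF v v'] at h5
    rw [mul_pow]
    linear_combination h5
  have hinj : Function.Injective H := by
    rw [injective_iff_map_eq_zero]
    intro v hv
    apply herm_nondeg hF
    intro x
    have e1 : x = ((H x : K) : Matrix (Fin n) (Fin n) F) *ᵥ w + (x - ((H x : K) : Matrix (Fin n) (Fin n) F) *ᵥ w) := by
      abel
    rw [e1, herm_add_right hF]
    have e2 : H (x - ((H x : K) : Matrix (Fin n) (Fin n) F) *ᵥ w) = 0 := by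
      rw [map_sub, h2, h3, mul_one, sub_self]
    rw [hpol _ _ hv e2, add_zero]
    have e3 := herm_ct hF (ct q ((H x : K) : Matrix (Fin n) (Fin n) F)) v w
    rw [ct_ct hF] at e3
    rw [← e3]
    exact hperp v hv _ (ct_mem hF hadj (H x).2)
  have h5 := LinearMap.finrank_le_finrank_of_injective hinj
  rw [hK.finrank_eq, finrank_fintype_fun_eq_card, Fintype.card_fin] at h5
  omega

/-- the matrix of `v ↦ H(v) w'` -/
noncomputable def mt (H : (Fin n → F) →ₗ[F] K) (w' : Fin n → F) : Matrix (Fin n) (Fin n) F :=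
  LinearMap.toMatrix' ({ toFun := fun v => ((H v : K) : Matrix (Fin n) (Fin n) F) *ᵥ w'
                         map_add' := fun a b => by rw [map_add, Subalgebra.coe_add, Matrix.add_mulVec]
                         map_smul' := fun c a => by
                          rw [map_smul, Subalgebra.coe_smul, Matrix.smul_mulVec, RingHom.id_apply] } :
                         (Fin n → F) →ₗ[F] (Fin n → F))

theorem mt_mulVec (H : (Fin n → F) →ₗ[F] K) (w' v : Fin n → F) :
    mt H w' *ᵥ v = ((H v : K) : Matrix (Fin n) (Fin n) F) *ᵥ w' := by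
  rw [mt, LinearMap.toMatrix'_mulVec]
  rfl

theorem mt_comm {H : (Fin n → F) →ₗ[F] K}
    (hl : ∀ (l : K) (v : Fin n → F), H ((l : Matrix (Fin n) (Fin n) F) *ᵥ v) = l * H v) (w' : Fin n → F) :
    ∀ k ∈ K, mt H w' * k = k * mt H w' := by
  intro k hk
  apply ext_mv
  intro v
  rw [← Matrix.mulVec_mulVec, ← Matrix.mulVec_mulVec, mt_mulVec, mt_mulVec, Matrix.mulVec_mulVec]
  have := hl ⟨k, hk⟩ v
  rw [this]
  rfl

theorem mt_mul {H H' : (Fin n → F) →ₗ[F] K}
    (hl : ∀ (l : K) (v : Fin n → F), H ((l : Matrix (Fin n) (Fin n) F) *ᵥ v) = l * H v) {w w'' : Fin n → F}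
    (h1 : H w'' = 1) : mt H w * mt H' w'' = mt H' w := by
  apply ext_mv
  intro v
  rw [← Matrix.mulVec_mulVec, mt_mulVec, mt_mulVec, mt_mulVec, hl, h1, mul_one]

theorem mt_mul_zero {H H' : (Fin n → F) →ₗ[F] K}
    (hl : ∀ (l : K) (v : Fin n → F), H ((l : Matrix (Fin n) (Fin n) F) *ᵥ v) = l * H v) {w w'' : Fin n → F}
    (h1 : H w'' = 0) : mt H w * mt H' w'' = 0 := by
  apply ext_mv
  intro v
  rw [← Matrix.mulVec_mulVec, mt_mulVec, mt_mulVec, hl, h1, mul_zero, Matrix.zero_mulVec, ZeroMemClass.coe_zero,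
    Matrix.zero_mulVec]

include hF hK hadj in
theorem mt_ct {H : (Fin n → F) →ₗ[F] K} {w : Fin n → F}
    (h : ∀ (v : Fin n → F) (l : K), hermForm n F q ((l : Matrix (Fin n) (Fin n) F) *ᵥ v) w = phiK q K w (l * H v)) :
    ct q (mt H w) = mt H w := by
  have key : ∀ u v, hermForm n F q u (((H v : K) : Matrix (Fin n) (Fin n) F) *ᵥ w) =
      phiK q K w (ctK hF hK hadj (H v) * H u) := by
    intro u v
    rw [← h, ctK_coe]
    have e3 := herm_ct hF (ct q ((H v : K) : Matrix (Fin n) (Fin n) F)) u w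
    rw [ct_ct hF] at e3
    exact e3.symm
  apply ext_of_herm hF
  intro u v
  rw [← herm_ct hF, mt_mulVec, mt_mulVec, key, herm_swap hF, key, ← phiK_ct hF hK hadj, map_mul]
  have e1 : ctK hF hK hadj (ctK hF hK hadj (H u)) = H u := Subtype.ext (ct_ct hF _)
  rw [e1]
  congr 1
  exact Subtype.ext (hK.comm _ (H u).2 _ (ctK hF hK hadj (H v)).2)

/-- two orthogonal `K`-lines -/
structure TwoLines (q : ℕ) (K : Subalgebra F (Matrix (Fin n) (Fin n) F)) (w : Fin n → F)
    (P₁ P₂ E E' : Matrix (Fin n) (Fin n) F) : Prop where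
  c1 : ∀ k ∈ K, P₁ * k = k * P₁
  c2 : ∀ k ∈ K, P₂ * k = k * P₂
  c3 : ∀ k ∈ K, E' * k = k * E'
  p11 : P₁ * P₁ = P₁
  p22 : P₂ * P₂ = P₂
  p12 : P₁ * P₂ = 0
  p21 : P₂ * P₁ = 0
  e1 : E * E' = P₂
  e2 : E' * E = P₁
  s1 : ct q P₁ = P₁
  s2 : ct q P₂ = P₂
  w1 : P₁ *ᵥ w = w
  w2 : P₂ *ᵥ w = 0

include hF hK hadj in
theorem exists_twoLines (hn : r < n) {w : Fin n → F} (hw : ∃ k ∈ K, hermForm n F q (k *ᵥ w) w ≠ 0) :
    ∃ P₁ P₂ E E' : Matrix (Fin n) (Fin n) F, TwoLines q K w P₁ P₂ E E' := by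
  obtain ⟨w2, hw2, hp⟩ := exists_second hF hK hadj hn hw
  have hp' : ∀ l ∈ K, hermForm n F q (l *ᵥ w) w2 = 0 := by
    intro l hl
    rw [herm_ct hF]
    exact herm_eq_zero_swap hF (hp _ (ct_mem hF hadj hl))
  obtain ⟨H₁, a1, a2, a3, a4⟩ := exists_H hK (by omega) hw
  obtain ⟨H₂, b1, b2, b3, b4⟩ := exists_H hK (by omega) hw2
  have h12 : H₁ w2 = 0 := a4 _ (fun l => hp l l.2)
  have h21 : H₂ w = 0 := b4 _ (fun l => hp' l l.2)
  exact ⟨mt H₁ w, mt H₂ w2, mt H₁ w2, mt H₂ w,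
    { c1 := mt_comm a2 w
      c2 := mt_comm b2 w2
      c3 := mt_comm b2 w
      p11 := mt_mul a2 a3
      p22 := mt_mul b2 b3
      p12 := mt_mul_zero a2 h12
      p21 := mt_mul_zero b2 h21
      e1 := mt_mul a2 a3
      e2 := mt_mul b2 b3
      s1 := mt_ct hF hK hadj a1
      s2 := mt_ct hF hK hadj b1
      w1 := by rw [mt_mulVec, a3, Subalgebra.coe_one, Matrix.one_mulVec]
      w2 := by rw [mt_mulVec, h21, ZeroMemClass.coe_zero, Matrix.zero_mulVec] }⟩

end H

section G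

variable {F : Type*} [Field F] [Fintype F] {n q r : ℕ} {K : Subalgebra F (Matrix (Fin n) (Fin n) F)}
  {w : Fin n → F} {P₁ P₂ E E' : Matrix (Fin n) (Fin n) F}

/-- `a` on the first line, `b` on the second line, `1` on the complement -/
def Gm (P₁ P₂ a b : Matrix (Fin n) (Fin n) F) : Matrix (Fin n) (Fin n) F := 1 + (a - 1) * P₁ + (b - 1) * P₂

theorem Gm_one : Gm P₁ P₂ (1 : Matrix (Fin n) (Fin n) F) 1 = 1 := by
  rw [Gm, sub_self, zero_mul, zero_mul, add_zero, add_zero]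

namespace TwoLines

variable (h : TwoLines q K w P₁ P₂ E E')

include h

theorem Gm_mul {a b c d : Matrix (Fin n) (Fin n) F} (hc : c ∈ K) (hd : d ∈ K) :
    Gm P₁ P₂ a b * Gm P₁ P₂ c d = Gm P₁ P₂ (a * c) (b * d) := by
  have hc1 : P₁ * (c - 1) = (c - 1) * P₁ := h.c1 _ (K.sub_mem hc K.one_mem)
  have hc2 : P₂ * (c - 1) = (c - 1) * P₂ := h.c2 _ (K.sub_mem hc K.one_mem)
  have hd1 : P₁ * (d - 1) = (d - 1) * P₁ := h.c1 _ (K.sub_mem hd K.one_mem)
  have hd2 : P₂ * (d - 1) = (d - 1) * P₂ := h.c2 _ (K.sub_mem hd K.one_mem)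
  have e11 : (a - 1) * P₁ * ((c - 1) * P₁) = (a - 1) * (c - 1) * P₁ := by
    rw [mul_assoc, ← mul_assoc P₁, hc1, mul_assoc (c - 1), h.p11, ← mul_assoc]
  have e12 : (a - 1) * P₁ * ((d - 1) * P₂) = 0 := by
    rw [mul_assoc, ← mul_assoc P₁, hd1, mul_assoc (d - 1), h.p12, mul_zero, mul_zero]
  have e21 : (b - 1) * P₂ * ((c - 1) * P₁) = 0 := by
    rw [mul_assoc, ← mul_assoc P₂, hc2, mul_assoc (c - 1), h.p21, mul_zero, mul_zero]
  have e22 : (b - 1) * P₂ * ((d - 1) * P₂) = (b - 1) * (d - 1) * P₂ := by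
    rw [mul_assoc, ← mul_assoc P₂, hd2, mul_assoc (d - 1), h.p22, ← mul_assoc]
  have e0 : Gm P₁ P₂ a b * Gm P₁ P₂ c d = 1 + (c - 1) * P₁ + (d - 1) * P₂ + (a - 1) * P₁ + (b - 1) * P₂ +
      (a - 1) * P₁ * ((c - 1) * P₁) + (a - 1) * P₁ * ((d - 1) * P₂) + (b - 1) * P₂ * ((c - 1) * P₁) +
      (b - 1) * P₂ * ((d - 1) * P₂) := by
    unfold Gm
    noncomm_ring
  rw [e0, e11, e12, e21, e22]
  unfold Gm
  noncomm_ring

theorem Gm_comm {a b : Matrix (Fin n) (Fin n) F} (ha : ∀ k ∈ K, a * k = k * a) (hb : ∀ k ∈ K, b * k = k * b)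
    {k : Matrix (Fin n) (Fin n) F} (hk : k ∈ K) : Gm P₁ P₂ a b * k = k * Gm P₁ P₂ a b := by
  have e1 : (a - 1) * P₁ * k = k * ((a - 1) * P₁) := by
    rw [mul_assoc, h.c1 k hk, ← mul_assoc, ← mul_assoc]
    congr 1
    rw [sub_mul, mul_sub, ha k hk, one_mul, mul_one]
  have e2 : (b - 1) * P₂ * k = k * ((b - 1) * P₂) := by
    rw [mul_assoc, h.c2 k hk, ← mul_assoc, ← mul_assoc]
    congr 1
    rw [sub_mul, mul_sub, hb k hk, one_mul, mul_one]
  unfold Gm
  rw [add_mul, add_mul, mul_add, mul_add, one_mul, mul_one, e1, e2]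

theorem ct_Gm (hF : Fintype.card F = q ^ 2) {a b : Matrix (Fin n) (Fin n) F} (ha : ct q a ∈ K) (hb : ct q b ∈ K) :
    ct q (Gm P₁ P₂ a b) = Gm P₁ P₂ (ct q a) (ct q b) := by
  have e1 : ct q (a - 1) = ct q a - 1 := by
    have h2 := ct_add hF (a - 1) 1
    rw [sub_add_cancel, ct_one hF] at h2
    rw [h2, add_sub_cancel_right]
  have e2 : ct q (b - 1) = ct q b - 1 := by
    have h2 := ct_add hF (b - 1) 1
    rw [sub_add_cancel, ct_one hF] at h2
    rw [h2, add_sub_cancel_right]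
  unfold Gm
  rw [ct_add hF, ct_add hF, ct_one hF, ct_mul hF, ct_mul hF, h.s1, h.s2, e1, e2, h.c1 _ (K.sub_mem ha K.one_mem),
    h.c2 _ (K.sub_mem hb K.one_mem)]

theorem det_swap {b : Matrix (Fin n) (Fin n) F} (hb : b ∈ K) : (Gm P₁ P₂ 1 b).det = (Gm P₁ P₂ b 1).det := by
  have e1 : Gm P₁ P₂ 1 b = 1 + ((b - 1) * E) * E' := by
    rw [Gm, sub_self, zero_mul, add_zero, mul_assoc, h.e1]
  have e2 : Gm P₁ P₂ b 1 = 1 + E' * ((b - 1) * E) := by
    rw [Gm, sub_self, zero_mul, add_zero, ← mul_assoc, h.c3 _ (K.sub_mem hb K.one_mem), mul_assoc, h.e2]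
  rw [e1, e2, Matrix.det_one_add_mul_comm]

theorem det_Gm {a b : Matrix (Fin n) (Fin n) F} (hb : b ∈ K) (hab : a * b = 1) :
    (Gm P₁ P₂ a b).det = 1 := by
  have e1 : Gm P₁ P₂ a b = Gm P₁ P₂ a 1 * Gm P₁ P₂ 1 b := by
    rw [h.Gm_mul K.one_mem hb, mul_one, one_mul]
  rw [e1, Matrix.det_mul, h.det_swap hb, ← Matrix.det_mul, h.Gm_mul hb K.one_mem, hab, mul_one, Gm_one,
    Matrix.det_one]

end TwoLines

end G

section elem

variable {F : Type*} [Field F] [Fintype F] {n q r : ℕ} (hF : Fintype.card F = q ^ 2)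
  {K : Subalgebra F (Matrix (Fin n) (Fin n) F)} (hK : IsFieldSubalgebra r K)
  (hadj : IsAdjointClosedFor (hermForm n F q) K)

include hF hK hadj in
/-- elements of norm one outside `F` -/
theorem exists_unit (hn : 0 < n) (hr : 2 ≤ r) : ∃ k ∈ K, ct q k * k = 1 ∧ ∀ c : F, k ≠ c • 1 := by
  have : Nonempty (Fin n) := ⟨⟨0, hn⟩⟩
  let _ : Field K := (isField_of hK).toField
  obtain ⟨k, hk1, hk2⟩ := exists_norm_one hF (by rw [hK.finrank_eq]; exact hr) (ctK hF hK hadj)
    (fun a => Subtype.ext (ct_ct hF _)) (fun a => Subtype.ext (by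
      rw [ctK_coe]
      show ct q (algebraMap F (Matrix (Fin n) (Fin n) F) a) = algebraMap F (Matrix (Fin n) (Fin n) F) (a ^ q)
      rw [Algebra.algebraMap_eq_smul_one, Algebra.algebraMap_eq_smul_one, ct_smul_one hF]))
  refine ⟨k, k.2, congrArg Subtype.val hk1, ?_⟩
  intro c hc
  apply hk2
  refine ⟨c, Subtype.ext ?_⟩
  rw [hc, ← Algebra.algebraMap_eq_smul_one]
  rfl

include hF hK hadj in
/-- **the element `g0`** -/
theorem exists_elem (hn : r < n) (hr : 2 ≤ r) {w : Fin n → F} (hw0 : w ≠ 0)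
    (hw : ∃ k ∈ K, hermForm n F q (k *ᵥ w) w ≠ 0) :
    ∃ g : GL (Fin n) F, g ∈ SUg n F q ∧ (∀ k ∈ K, (g : Matrix (Fin n) (Fin n) F) * k = k * g) ∧
      ∃ k ∈ K, (g : Matrix (Fin n) (Fin n) F) *ᵥ w = k *ᵥ w ∧ ∀ c : F, k *ᵥ w ≠ c • w := by
  obtain ⟨P₁, P₂, E, E', h⟩ := exists_twoLines hF hK hadj hn hw
  obtain ⟨k, hk, hk1, hkF⟩ := exists_unit hF hK hadj (by omega) hr
  have hk' := ct_mem hF hadj hk
  have hk2 : k * ct q k = 1 := by rw [hK.comm _ hk _ hk']; exact hk1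
  have e1 : Gm P₁ P₂ k (ct q k) * Gm P₁ P₂ (ct q k) k = 1 := by
    rw [h.Gm_mul hk' hk, hk2, hk1, Gm_one]
  have e2 : Gm P₁ P₂ (ct q k) k * Gm P₁ P₂ k (ct q k) = 1 := by
    rw [h.Gm_mul hk hk', hk2, hk1, Gm_one]
  have hgw : Gm P₁ P₂ k (ct q k) *ᵥ w = k *ᵥ w := by
    unfold Gm
    rw [Matrix.add_mulVec, Matrix.add_mulVec, Matrix.one_mulVec, ← Matrix.mulVec_mulVec, ← Matrix.mulVec_mulVec, h.w1,
      h.w2, Matrix.mulVec_zero, add_zero, Matrix.sub_mulVec, Matrix.one_mulVec]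
    abel
  refine ⟨⟨Gm P₁ P₂ k (ct q k), Gm P₁ P₂ (ct q k) k, e1, e2⟩, ?_, ?_, k, hk, hgw, ?_⟩
  · refine Subgroup.mem_inf.2 ⟨?_, ?_⟩
    · rw [mem_GU_iff_ct hF]
      show ct q (Gm P₁ P₂ k (ct q k)) * Gm P₁ P₂ k (ct q k) = 1
      rw [h.ct_Gm hF hk' (by rw [ct_ct hF]; exact hk), ct_ct hF]
      exact e2
    · rw [mem_specialLinear]
      exact h.det_Gm hk' hk2
  · intro l hl
    exact h.Gm_comm (fun k' hk'' => hK.comm _ hk _ hk'') (fun k' hk'' => hK.comm _ hk' _ hk'') hl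
  · intro c hc
    obtain ⟨y, hy, hy1⟩ := hK.inv (k - c • 1) (K.sub_mem hk (K.smul_mem K.one_mem c)) (sub_ne_zero.2 (hkF c))
    have hy2 : y * (k - c • 1) = 1 := by rw [hK.comm _ hy _ (K.sub_mem hk (K.smul_mem K.one_mem c))]; exact hy1
    apply hw0
    rw [← Matrix.one_mulVec w, ← hy2, ← Matrix.mulVec_mulVec, Matrix.sub_mulVec, Matrix.smul_mulVec,
      Matrix.one_mulVec, hc, sub_self, Matrix.mulVec_zero]

end elem

end Cfsg.Agent.H558.EPU
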